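import Cfsg.Agent.Lib.LocalP2.ChermakDelgado
import Cfsg.Agent.Lib.LocalFusion.Basic
import Cfsg.Agent.S3006
import Cfsg.Agent.S3007
import Cfsg.Agent.Lib.Thompson.PGroup

/-!
Conjugation in the lattice of subgroups of largest `|R| * |C(R)|`, and orbit lemmas used to find a
minimal centrally large subgroup normalised by the Thompson subgroup.
-/

set_option autoImplicit false

namespace Cfsg.Agent.Lib.CLNormal

open Subgroup LocalP2
open scoped commutatorElement

variable {S : Type*} [Group S]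

/-- Conjugate subgroup. -/
abbrev cj (g : S) (R : Subgroup S) : Subgroup S := R.map (MulAut.conj g).toMonoidHom

theorem mem_cj {g x : S} {R : Subgroup S} : x ∈ cj g R ↔ g⁻¹ * x * g ∈ R := LocalFusion.mem_map_conj

theorem cj_cj (g h : S) (R : Subgroup S) : cj g (cj h R) = cj (g * h) R := LocalFusion.map_conj_mul R g h

theorem card_cj (g : S) (R : Subgroup S) : Nat.card (cj g R) = Nat.card R :=
  (Nat.card_congr (R.equivMapOfInjective _ (MulAut.conj g).injective).toEquiv).symm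

theorem cj_centralizer (g : S) (R : Subgroup S) :
    centralizer (cj g R : Set S) = cj g (centralizer (R : Set S)) := by
  ext x
  rw [mem_cj, mem_centralizer_iff, mem_centralizer_iff]
  constructor
  · intro h r hr
    have h1 : g * r * g⁻¹ * x = x * (g * r * g⁻¹) := h _ (mem_map_of_mem _ hr)
    calc r * (g⁻¹ * x * g) = g⁻¹ * (g * r * g⁻¹ * x) * g := by group
      _ = g⁻¹ * x * g * r := by rw [h1]; group
  · intro h y hy
    have h1 := h _ (mem_cj.1 hy)
    calc y * x = g * ((g⁻¹ * y * g) * (g⁻¹ * x * g)) * g⁻¹ := by group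
      _ = x * y := by rw [h1]; group

theorem cj_eq_of_mem_normalizer {g : S} {R : Subgroup S} (hg : g ∈ normalizer (R : Set S)) : cj g R = R := by
  ext x
  rw [mem_cj]
  conv_rhs => rw [show x = g * (g⁻¹ * x * g) * g⁻¹ by group]
  exact mem_normalizer_iff.1 hg _

theorem comm_of_abelian {A : Subgroup S} (hA : A ≤ centralizer (A : Set S)) {x y : S} (hx : x ∈ A) (hy : y ∈ A) :
    x * y = y * x :=
  (mem_centralizer_iff.1 (hA hx) y hy).symm

theorem conj_comm {x g : S} : g * x * g⁻¹ = ⁅g, x⁆ * x := by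
  rw [commutatorElement_def]; group

/-- Elements of `H` whose commutators with `G` lie in `Y`. -/
def modCent (Y H : Subgroup S) (G : Set S) (hH : H ≤ normalizer (Y : Set S)) : Subgroup S where
  carrier := {x | x ∈ H ∧ ∀ g ∈ G, ⁅x, g⁆ ∈ Y}
  one_mem' := ⟨one_mem _, fun g _ => by simp⟩
  mul_mem' := fun {x y} hx hy => ⟨mul_mem hx.1 hy.1, fun g hg => by
    rw [show ⁅x * y, g⁆ = x * ⁅y, g⁆ * x⁻¹ * ⁅x, g⁆ by simp only [commutatorElement_def]; group]
    exact mul_mem ((mem_normalizer_iff.1 (hH hx.1) _).1 (hy.2 g hg)) (hx.2 g hg)⟩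
  inv_mem' := fun {x} hx => ⟨inv_mem hx.1, fun g hg => by
    rw [show ⁅x⁻¹, g⁆ = x⁻¹ * ⁅x, g⁆⁻¹ * x⁻¹⁻¹ by simp only [commutatorElement_def]; group]
    exact (mem_normalizer_iff.1 (hH (inv_mem hx.1)) _).1 (inv_mem (hx.2 g hg))⟩

theorem mem_modCent {Y H : Subgroup S} {G : Set S} {hH : H ≤ normalizer (Y : Set S)} {x : S} :
    x ∈ modCent Y H G hH ↔ x ∈ H ∧ ∀ g ∈ G, ⁅x, g⁆ ∈ Y := Iff.rfl

variable [Finite S]

theorem mem_normalizer_of_cj_le {g : S} {R : Subgroup S} (h : cj g R ≤ R) : g ∈ normalizer (R : Set S) := by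
  have he : cj g R = R := eq_of_card h (card_cj g R).ge
  refine mem_normalizer_iff.2 fun x => ?_
  conv_rhs => rw [← he, mem_cj]
  rw [show g⁻¹ * (g * x * g⁻¹) * g = x by group]

theorem mem_normalizer_centralizer {g : S} {R : Subgroup S} (hg : g ∈ normalizer (R : Set S)) :
    g ∈ normalizer (centralizer (R : Set S) : Set S) :=
  mem_normalizer_of_cj_le (by rw [← cj_centralizer, cj_eq_of_mem_normalizer hg])

theorem mem_normalizer_inf {g : S} {A B : Subgroup S} (hA : g ∈ normalizer (A : Set S))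
    (hB : g ∈ normalizer (B : Set S)) : g ∈ normalizer ((A ⊓ B : Subgroup S) : Set S) :=
  mem_normalizer_of_cj_le (le_inf ((map_mono inf_le_left).trans (cj_eq_of_mem_normalizer hA).le)
    ((map_mono inf_le_right).trans (cj_eq_of_mem_normalizer hB).le))

theorem mem_normalizer_sup {g : S} {A B : Subgroup S} (hA : g ∈ normalizer (A : Set S))
    (hB : g ∈ normalizer (B : Set S)) : g ∈ normalizer ((A ⊔ B : Subgroup S) : Set S) :=
  mem_normalizer_of_cj_le (le_of_eq (by rw [cj, Subgroup.map_sup, ← cj, ← cj, cj_eq_of_mem_normalizer hA, cj_eq_of_mem_normalizer hB]))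

theorem mem_normalizer_of_comm {g : S} {R : Subgroup S} (h : ∀ r ∈ R, ⁅g, r⁆ ∈ R) :
    g ∈ normalizer (R : Set S) := by
  refine mem_normalizer_of_cj_le ?_
  rintro _ ⟨r, hr, rfl⟩
  show g * r * g⁻¹ ∈ R
  rw [conj_comm]
  exact mul_mem (h r hr) hr

theorem mem_normalizer_sSup {g : S} {s : Set (Subgroup S)} (h : ∀ R ∈ s, cj g R ≤ sSup s) :
    g ∈ normalizer ((sSup s : Subgroup S) : Set S) :=
  mem_normalizer_of_cj_le (map_le_iff_le_comap.2 (sSup_le fun R hR => map_le_iff_le_comap.1 (h R hR)))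

theorem large_cj {g : S} {R : Subgroup S} (hR : Cfsg.IsCentralizerLarge R) : Cfsg.IsCentralizerLarge (cj g R) := by
  unfold Cfsg.IsCentralizerLarge at hR ⊢
  rw [cj_centralizer, card_cj, card_cj]
  exact hR

theorem large_sSup {s : Set (Subgroup S)} (hne : s.Nonempty)
    (hs : ∀ R ∈ s, Cfsg.IsCentralizerLarge R) : Cfsg.IsCentralizerLarge (sSup s) := by
  classical
  have : Fintype (Subgroup S) := Fintype.ofFinite _
  have hne' : s.toFinset.Nonempty := Set.toFinset_nonempty.2 hne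
  have h : Cfsg.IsCentralizerLarge (s.toFinset.sup' hne' id) :=
    Finset.sup'_induction hne' id (fun _ h₁ _ h₂ => (large_pair h₁ h₂).2.1)
      (fun R hR => hs R (Set.mem_toFinset.1 hR))
  rwa [show s.toFinset.sup' hne' id = sSup s by
    rw [Finset.sup'_eq_sup, Finset.sup_id_eq_sSup, Set.coe_toFinset]] at h

theorem large_sInf {s : Set (Subgroup S)} (hne : s.Nonempty)
    (hs : ∀ R ∈ s, Cfsg.IsCentralizerLarge R) : Cfsg.IsCentralizerLarge (sInf s) := by
  classical
  have : Fintype (Subgroup S) := Fintype.ofFinite _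
  have hne' : s.toFinset.Nonempty := Set.toFinset_nonempty.2 hne
  have h : Cfsg.IsCentralizerLarge (s.toFinset.inf' hne' id) :=
    Finset.inf'_induction hne' id (fun _ h₁ _ h₂ => (large_pair h₁ h₂).2.2.1)
      (fun R hR => hs R (Set.mem_toFinset.1 hR))
  rwa [show s.toFinset.inf' hne' id = sInf s by
    rw [Finset.inf'_eq_inf, Finset.inf_id_eq_sInf, Set.coe_toFinset]] at h

/-- A member of the lattice containing its centraliser is centrally large. -/
theorem cl_centralizer {T : Subgroup S} (hT : Cfsg.IsCentralizerLarge T) (hTa : T ≤ centralizer (T : Set S)) :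
    Cfsg.IsCentrallyLarge (centralizer (T : Set S)) := by
  refine centrallyLarge_iff.2 ⟨(large_centralizer hT).1, ?_⟩
  rw [← (large_centralizer hT).2]
  exact hTa

theorem maxAbelian_cj {g : S} {A : Subgroup S} (hA : A ∈ Cfsg.maxAbelianSubgroups S) :
    cj g A ∈ Cfsg.maxAbelianSubgroups S := by
  refine ⟨le_centralizer_iff_isMulCommutative.1 ?_, fun B hB => by rw [card_cj]; exact hA.2 B hB⟩
  rw [cj_centralizer]
  exact map_mono (le_centralizer_iff_isMulCommutative.2 hA.1)

/-- An orbit of abelian members lying in a common normalised subgroup. -/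
theorem orbit {Y H N Γ T : Subgroup S} (hY : Cfsg.IsCentralizerLarge Y) (hYa : Y ≤ centralizer (Y : Set S))
    (hH : H = centralizer (Y : Set S)) (hT : Cfsg.IsCentralizerLarge T) (hYT : Y < T)
    (hTa : T ≤ centralizer (T : Set S)) (hTN : T ≤ N) (hNT : N ≤ normalizer (T : Set S))
    (hΓN : Γ ≤ normalizer (N : Set S)) (hΓY : Γ ≤ normalizer (Y : Set S))
    (hsmall : ∀ Z : Subgroup S, Cfsg.IsCentralizerLarge Z → Z ≤ centralizer (Z : Set S) → Y < Z →
      N ≤ normalizer (Z : Set S) → Nat.card T ≤ Nat.card Z)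
    (hnone : ∀ Z : Subgroup S, Cfsg.IsCentralizerLarge Z → Z ≤ centralizer (Z : Set S) → Y < Z →
      ¬ Γ ≤ normalizer (Z : Set S)) :
    ∃ L : Subgroup S, L = sSup {Z | ∃ g ∈ Γ, Z = cj g T} ∧ Cfsg.IsCentralizerLarge L ∧ T ≤ L ∧ L ≤ H ∧
      Γ ≤ normalizer (L : Set S) ∧ L ⊓ centralizer (L : Set S) = Y ∧ L ⊔ centralizer (L : Set S) = H ∧
      (∀ g ∈ Γ, N ≤ normalizer (cj g T : Set S)) ∧ ∀ l ∈ L, ∀ h ∈ H, ⁅l, h⁆ ∈ Y := by
  have hTH : T ≤ H := hH ▸ hTa.trans (centralizer_le hYT.le)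
  have hYgT : ∀ g ∈ Γ, Y ≤ cj g T := fun g hg =>
    (cj_eq_of_mem_normalizer (hΓY hg)).ge.trans (map_mono hYT.le)
  have hgH : ∀ g ∈ Γ, cj g T ≤ H := fun g hg => by
    refine (map_mono hTH).trans (cj_eq_of_mem_normalizer ?_).le
    rw [hH]; exact mem_normalizer_centralizer (hΓY hg)
  have hga : ∀ g, cj g T ≤ centralizer (cj g T : Set S) := fun g => by
    rw [cj_centralizer]; exact map_mono hTa
  have hgN : ∀ g ∈ Γ, cj g T ≤ N := fun g hg => (map_mono hTN).trans (cj_eq_of_mem_normalizer (hΓN hg)).le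
  have hNg : ∀ g ∈ Γ, N ≤ normalizer (cj g T : Set S) := fun g hg n hn => by
    refine mem_normalizer_of_cj_le (le_of_eq ?_)
    have hn' : g⁻¹ * n * g ∈ normalizer (T : Set S) := by
      refine hNT ?_
      have := (mem_normalizer_iff.1 (hΓN (inv_mem hg)) n).1 hn
      rwa [inv_inv] at this
    rw [cj_cj, show n * g = g * (g⁻¹ * n * g) by group, ← cj_cj, cj_eq_of_mem_normalizer hn']
  have hYn : ∀ x : S, x ∈ H → x ∈ normalizer (Y : Set S) := fun x hx =>
    mem_normalizer_of_comm fun r hr => by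
      rw [commutatorElement_eq_one_iff_mul_comm.2 (mem_centralizer_iff.1 (hH ▸ hx) r hr).symm]
      exact one_mem _
  have hpair : ∀ g ∈ Γ, ∀ g' ∈ Γ, ∀ x ∈ cj g T, ∀ y ∈ cj g' T, ⁅x, y⁆ ∈ Y := by
    intro g hg g' hg' x hx y hy
    have hm : ⁅x, y⁆ ∈ cj g T ⊓ cj g' T := by
      constructor
      · rw [show ⁅x, y⁆ = x * (y * x⁻¹ * y⁻¹) by simp only [commutatorElement_def]; group]
        exact mul_mem hx ((mem_normalizer_iff.1 (hNg g hg (hgN g' hg' hy)) _).1 (inv_mem hx))
      · rw [commutatorElement_def]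
        exact Subgroup.mul_mem _ ((mem_normalizer_iff.1 (hNg g' hg' (hgN g hg hx)) _).1 hy) (Subgroup.inv_mem _ hy)
    have hI := (large_pair (large_cj (g := g) hT) (large_cj (g := g') hT)).2.2.1
    have hYI : Y ≤ cj g T ⊓ cj g' T := le_inf (hYgT g hg) (hYgT g' hg')
    rcases hYI.lt_or_eq with hlt | heq
    · have hIa : cj g T ⊓ cj g' T ≤ centralizer ((cj g T ⊓ cj g' T : Subgroup S) : Set S) :=
        inf_le_left.trans ((hga g).trans (centralizer_le inf_le_left))
      have hge := hsmall _ hI hIa hlt fun n hn => mem_normalizer_inf (hNg g hg hn) (hNg g' hg' hn)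
      have e1 : cj g T ⊓ cj g' T = cj g T := eq_of_card inf_le_left (by rw [card_cj]; exact hge)
      have e2 : cj g T ⊓ cj g' T = cj g' T := eq_of_card inf_le_right (by rw [card_cj]; exact hge)
      have hxy : cj g T = cj g' T := e1.symm.trans e2
      rw [commutatorElement_eq_one_iff_mul_comm.2 (comm_of_abelian (hga g') (hxy ▸ hx) hy)]
      exact one_mem _
    · exact heq ▸ hm
  set L := sSup {Z | ∃ g ∈ Γ, Z = cj g T} with hLdef
  have hne : {Z | ∃ g ∈ Γ, Z = cj g T}.Nonempty := ⟨_, 1, one_mem _, rfl⟩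
  have hL : Cfsg.IsCentralizerLarge L := large_sSup hne (by rintro _ ⟨g, -, rfl⟩; exact large_cj hT)
  have hTL : T ≤ L :=
    (show T = cj 1 T from (LocalFusion.map_conj_one T).symm).le.trans (le_sSup ⟨1, one_mem _, rfl⟩)
  have hLH : L ≤ H := sSup_le (by rintro _ ⟨g, hg, rfl⟩; exact hgH g hg)
  have hLΓ : Γ ≤ normalizer (L : Set S) := fun x hx => mem_normalizer_sSup (by
    rintro _ ⟨g, hg, rfl⟩
    rw [cj_cj]
    exact le_sSup ⟨x * g, mul_mem hx hg, rfl⟩)
  obtain ⟨hCL, hCC⟩ := large_centralizer hL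
  have hYL : Y ≤ centralizer (L : Set S) := le_centralizer_iff.1 (hH ▸ hLH)
  have hLC : L ⊓ centralizer (L : Set S) = Y := by
    rcases (le_inf (hYT.le.trans hTL) hYL).lt_or_eq with hlt | heq
    · exfalso
      refine hnone _ (large_pair hL hCL).2.2.1 ?_ hlt fun x hx =>
        mem_normalizer_inf (hLΓ hx) (mem_normalizer_centralizer (hLΓ hx))
      exact inf_le_right.trans (centralizer_le inf_le_left)
    · exact heq.symm
  have hsup : L ⊔ centralizer (L : Set S) = H := by
    have := (large_pair hL hCL).2.2.2.2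
    rw [hLC, ← hCC, sup_comm] at this
    rw [hH, this]
  refine ⟨L, rfl, hL, hTL, hLH, hLΓ, hLC, hsup, hNg, ?_⟩
  have hU : L ≤ modCent Y H (H : Set S) hYn := by
    refine sSup_le ?_
    rintro _ ⟨g, hg, rfl⟩ t ht
    refine mem_modCent.2 ⟨hgH g hg ht, fun h hh => ?_⟩
    have hle : H ≤ modCent Y H (cj g T : Set S) hYn := by
      refine hsup.ge.trans ?_
      refine sup_le (sSup_le ?_) fun c hc => mem_modCent.2 ⟨?_, fun y hy => ?_⟩
      · rintro _ ⟨g', hg', rfl⟩ y hy
        exact mem_modCent.2 ⟨hsup.symm ▸ hgH g' hg' hy, fun x hx => hpair g' hg' g hg y hy x hx⟩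
      · exact hsup ▸ mem_sup_right hc
      · rw [commutatorElement_eq_one_iff_mul_comm.2 (mem_centralizer_iff.1 hc y ((le_sSup (show cj g T ∈ {Z | ∃ g ∈ Γ, Z = cj g T} from ⟨g, hg, rfl⟩)) hy)).symm]
        exact one_mem _
    have := (mem_modCent.1 (hle hh)).2 t ht
    rw [← commutatorElement_inv]
    exact inv_mem this
  exact fun l hl h hh => (mem_modCent.1 (hU hl)).2 h hh

end Cfsg.Agent.Lib.CLNormal
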