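import Cfsg.Agent.Lib.CLNormal.Basic
import Cfsg.Agent.Lib.Coprime.Action

/-!
A minimal centrally large subgroup normalised by the Thompson subgroup.
-/

set_option autoImplicit false

namespace Cfsg.Agent.Lib.CLNormal

open Subgroup LocalP2
open scoped commutatorElement Pointwise

variable {S : Type*} [Group S] [Finite S] {p : ℕ} [hp : Fact p.Prime]

omit [Finite S] in
/-- Two elements of a quotient-like section: a non-trivial invariant section has a fixed point. -/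
theorem exists_central_mod (hS : IsPGroup p S) [Finite S] {G X C : Subgroup S} (hC : C < X)
    (hGX : G ≤ normalizer (X : Set S)) (hGC : G ≤ normalizer (C : Set S))
    (hXC : X ≤ normalizer (C : Set S)) :
    ∃ u ∈ X, u ∉ C ∧ ∀ g ∈ G, ⁅u, g⁆ ∈ C := by
  set K := X ⊔ G with hK
  have hKC : K ≤ normalizer (C : Set S) := sup_le hXC hGC
  haveI : (C.subgroupOf K).Normal := normal_subgroupOf_of_le_normalizer hKC
  haveI : (X.subgroupOf K).Normal := normal_subgroupOf_of_le_normalizer (sup_le X.le_normalizer hGX)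
  set π := QuotientGroup.mk' (C.subgroupOf K)
  haveI : ((X.subgroupOf K).map π).Normal := Normal.map inferInstance π (QuotientGroup.mk'_surjective _)
  have hne : (X.subgroupOf K).map π ≠ ⊥ := by
    rw [Ne, Subgroup.map_eq_bot_iff, QuotientGroup.ker_mk']
    intro h
    refine hC.not_ge fun x hx => ?_
    exact mem_subgroupOf.1 (h (show (⟨x, le_sup_left (b := G) hx⟩ : K) ∈ X.subgroupOf K from hx))
  obtain ⟨z, hz, hzc, hzp⟩ := Thompson.exists_central_order_p ((hS.to_subgroup K).to_quotient _) hne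
  obtain ⟨y, hy, rfl⟩ := hz
  refine ⟨y, mem_subgroupOf.1 hy, fun hyC => ?_, fun g hg => ?_⟩
  · rw [show π y = 1 from (QuotientGroup.eq_one_iff _).2 (mem_subgroupOf.2 hyC), orderOf_one] at hzp
    exact hp.out.ne_one hzp.symm
  · have h1 : π ⁅y, ⟨g, le_sup_right (a := X) hg⟩⁆ = 1 := by
      rw [map_commutatorElement, commutatorElement_eq_one_iff_mul_comm]
      exact (mem_center_iff.1 hzc _).symm
    exact mem_subgroupOf.1 ((QuotientGroup.eq_one_iff _).1 h1)

theorem exists_mem_normalizer (hS : IsPGroup p S) {N G : Subgroup S} (h : N < G) :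
    ∃ g ∈ G, g ∉ N ∧ g ∈ normalizer (N : Set S) :=
  LocalFusion.exists_mem_normalizer_not_mem (hS.to_subgroup G).isNilpotent h

/-- A conjugate of the centre of a centrally large subgroup under an element of a largest abelian subgroup. -/
theorem conj_center_le (hS : IsPGroup p S) {R A : Subgroup S} (hR : Cfsg.IsCentrallyLarge R)
    (hA : A ∈ Cfsg.maxAbelianSubgroups S) {a : S} (ha : a ∈ A) :
    (∀ x ∈ cj a (centralizer (R : Set S)), x ∈ (centralizer (R : Set S) : Set S) * (A : Set S)) := by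
  obtain ⟨hR1, hR2⟩ := centrallyLarge_iff.1 hR
  obtain ⟨-, -, h3, h4, -⟩ := S3006.result S hS R A hR hA
  rw [inf_eq_right.2 hR2] at h3 h4
  intro x hx
  have hx1 : x ∈ (R ⊔ A) ⊓ centralizer ((R ⊓ A : Subgroup S) : Set S) := by
    obtain ⟨z, hz, rfl⟩ := hx
    refine ⟨Subgroup.mul_mem _ (Subgroup.mul_mem _ (mem_sup_right ha) (mem_sup_left (hR2 hz)))
        (Subgroup.inv_mem _ (mem_sup_right ha)),
      mem_centralizer_iff.2 fun e he => ?_⟩
    show e * (a * z * a⁻¹) = a * z * a⁻¹ * e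
    have h1 : a * e = e * a := comm_of_abelian (le_centralizer_iff_isMulCommutative.2 hA.1) ha he.2
    have h2 : e * z = z * e := mem_centralizer_iff.1 hz e he.1
    have h3 : a⁻¹ * e = e * a⁻¹ := (Commute.inv_left (show Commute a e from h1)).eq
    calc e * (a * z * a⁻¹) = (a * e) * z * a⁻¹ := by rw [h1]; group
      _ = a * (e * z) * a⁻¹ := by group
      _ = a * z * (e * a⁻¹) := by rw [h2]; group
      _ = a * z * a⁻¹ * e := by rw [← h3]; group
  rw [h3] at hx1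
  rw [← SetLike.mem_coe, h4] at hx1
  simpa [Set.inf_eq_inter, Set.inter_eq_right.2 (SetLike.coe_subset_coe.2 hR2)] using hx1

/-- A largest abelian subgroup in the orbit situation fixes an abelian half of the orbit. -/
theorem half (hS : IsPGroup p S) {Y H Δ Γ T L A : Subgroup S} (hY : Cfsg.IsCentralizerLarge Y)
    (hH : H = centralizer (Y : Set S)) (hT : Cfsg.IsCentralizerLarge T) (hYT : Y ≤ T)
    (hTa : T ≤ centralizer (T : Set S))
    (hA : A ∈ Cfsg.maxAbelianSubgroups S) (hAΔ : A ≤ normalizer (Δ : Set S)) (hΔT : Δ ≤ normalizer (T : Set S))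
    (hΓ : Γ = A ⊔ Δ) (hHΔ : H ≤ Δ) (hΓY : Γ ≤ normalizer (Y : Set S))
    (hLdef : L = sSup {Z | ∃ g ∈ Γ, Z = cj g T})
    (hL : Cfsg.IsCentralizerLarge L) (hLH : L ≤ H) (hTL : T ≤ L) (hLΓ : Γ ≤ normalizer (L : Set S))
    (hLC : L ⊓ centralizer (L : Set S) = Y) (hsup : L ⊔ centralizer (L : Set S) = H)
    (hLH2 : ∀ l ∈ L, ∀ h ∈ H, ⁅l, h⁆ ∈ Y) :
    ∃ G : Subgroup S, Y ≤ G ∧ G ≤ H ∧ H ⊓ A ≤ normalizer (G : Set S) ∧ A ≤ normalizer (G : Set S) ∧
      Cfsg.IsCentralizerLarge (A ⊔ G) ∧ (∀ l ∈ L, l ∈ normalizer (G : Set S)) ∧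
      ∀ x ∈ G, ∀ a ∈ A, ⁅x, a⁆ ∈ centralizer (L : Set S) := by
  have hAa : A ≤ centralizer (A : Set S) := le_centralizer_iff_isMulCommutative.2 hA.1
  obtain ⟨hCL, hCC⟩ := large_centralizer hL
  set R₀ := centralizer (L : Set S) with hR₀
  have hYR₀ : Y ≤ R₀ := hLC.ge.trans inf_le_right
  have hAΓ : A ≤ Γ := hΓ ▸ le_sup_left
  -- the orbit is an orbit under `A`
  have horb : ∀ g ∈ Γ, ∃ a ∈ A, cj g T = cj a T := by
    intro g hg
    rw [hΓ] at hg
    obtain ⟨a, ha, d, hd, rfl⟩ := (Coprime.mem_sup_of_le_normalizer hAΔ).1 hg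
    exact ⟨a, ha, by rw [← cj_cj, cj_eq_of_mem_normalizer (hΔT hd)]⟩
  set R := centralizer (T : Set S) with hR
  have hRcl : Cfsg.IsCentrallyLarge R := cl_centralizer hT hTa
  have hRT : centralizer (R : Set S) = T := ((large_centralizer hT).2).symm
  have hRH : R ≤ H := hH ▸ centralizer_le hYT
  have hR₀R : R₀ ≤ R := centralizer_le hTL
  have hTH : T ≤ normalizer (T : Set S) := T.le_normalizer
  have hHT : H ≤ normalizer (T : Set S) := hHΔ.trans hΔT
  -- `L` lies in `T A`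
  have hLTA : ∀ x ∈ L, ∃ t ∈ T, ∃ a ∈ L ⊓ A, t * a = x := by
    have hle : L ≤ T ⊔ (L ⊓ A) := by
      conv_lhs => rw [hLdef]
      refine sSup_le ?_
      rintro _ ⟨g, hg, rfl⟩
      obtain ⟨a, ha, he⟩ := horb g hg
      intro x hx
      have hxL : x ∈ L := hLdef ▸ (le_sSup (show cj g T ∈ {Z | ∃ g ∈ Γ, Z = cj g T} from ⟨g, hg, rfl⟩)) hx
      rw [he, ← hRT] at hx
      obtain ⟨t, ht, e, he', rfl⟩ := conj_center_le hS hRcl hA ha x hx
      rw [hRT] at ht
      have heL : e ∈ L := by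
        have := mul_mem (inv_mem (hTL ht)) hxL
        rwa [inv_mul_cancel_left] at this
      exact mul_mem (mem_sup_left ht) (mem_sup_right ⟨heL, he'⟩)
    intro x hx
    have hn : L ⊓ A ≤ normalizer (T : Set S) := (inf_le_left.trans hLH).trans hHT
    obtain ⟨a, ha, t, ht, rfl⟩ := (Coprime.mem_sup_of_le_normalizer hn).1 (sup_comm T (L ⊓ A) ▸ hle hx)
    exact ⟨a * t * a⁻¹, (mem_normalizer_iff.1 (hn ha) t).1 ht, a, ha, by group⟩
  -- intersections
  have hLR : L ⊓ R = T := by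
    refine le_antisymm (fun x hx => ?_) (le_inf hTL hTa)
    obtain ⟨t, ht, e, he, rfl⟩ := hLTA x hx.1
    have heR : e ∈ R := by
      have := mul_mem (inv_mem (hTa ht)) hx.2
      rwa [inv_mul_cancel_left] at this
    refine mul_mem ht (hYT (hLC.le ⟨he.1, ?_⟩))
    have hle : L ≤ centralizer ({e} : Set S) := by
      rw [hLdef]
      refine sSup_le ?_
      rintro _ ⟨g, hg, rfl⟩
      obtain ⟨a, ha, hga⟩ := horb g hg
      rw [hga]
      intro y hy
      obtain ⟨z, hz, rfl⟩ := hy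
      rw [mem_centralizer_singleton_iff]
      show a * z * a⁻¹ * e = e * (a * z * a⁻¹)
      have h1 : a * e = e * a := comm_of_abelian hAa ha he.2
      have h2 : z * e = e * z := mem_centralizer_iff.1 heR z hz
      have h3 : a⁻¹ * e = e * a⁻¹ := (Commute.inv_left (show Commute a e from h1)).eq
      calc a * z * a⁻¹ * e = a * z * (a⁻¹ * e) := by group
        _ = a * (z * e) * a⁻¹ := by rw [h3]; group
        _ = (a * e) * z * a⁻¹ := by rw [h2]; group
        _ = e * (a * z * a⁻¹) := by rw [h1]; group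
    exact mem_centralizer_iff.2 fun y hy => mem_centralizer_singleton_iff.1 (hle hy)
  have hTR₀ : T ⊓ R₀ = Y :=
    le_antisymm ((inf_le_inf_right _ hTL).trans hLC.le) (le_inf hYT hYR₀)
  have hHL : H ≤ normalizer (L : Set S) := fun x hx => hLΓ (hΓ ▸ mem_sup_right (hHΔ hx))
  have hR₀n : H ≤ normalizer (R₀ : Set S) := fun x hx => mem_normalizer_centralizer (hHL hx)
  have hRTR₀ : R = T ⊔ R₀ := by
    refine le_antisymm (fun x hx => ?_) (sup_le hTa hR₀R)
    have hxH := hRH hx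
    rw [← hsup] at hxH
    obtain ⟨l, hl, c, hc, rfl⟩ := (Coprime.mem_sup_of_le_normalizer
      (hLH.trans hR₀n)).1 hxH
    refine mul_mem (mem_sup_left (hLR.le ⟨hl, ?_⟩)) (mem_sup_right hc)
    have := mul_mem hx (inv_mem (hR₀R hc))
    rwa [mul_inv_cancel_right] at this
  -- orders
  have cR : Nat.card R * Nat.card Y = Nat.card T * Nat.card R₀ := by
    rw [hRTR₀, ← hTR₀]
    exact Coprime.card_sup_mul_card_inf_of_le_normalizer ((hTL.trans hLH).trans hR₀n)
  have hf1 : Nat.card T * Nat.card R = Cfsg.maxCentralizerProduct S := hT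
  have hf2 : Nat.card L * Nat.card R₀ = Cfsg.maxCentralizerProduct S := hL
  have cLY : Nat.card L * Nat.card Y = Nat.card T * Nat.card T := by
    refine Nat.eq_of_mul_eq_mul_right (Nat.card_pos (α := R₀)) ?_
    calc Nat.card L * Nat.card Y * Nat.card R₀ = Nat.card T * Nat.card R * Nat.card Y := by rw [hf1, ← hf2]; ring
      _ = Nat.card T * Nat.card T * Nat.card R₀ := by rw [mul_assoc, cR]; ring
  have hn : L ⊓ A ≤ normalizer (T : Set S) := (inf_le_left.trans hLH).trans hHT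
  have cL : Nat.card L * Nat.card ↥(T ⊓ A) = Nat.card T * Nat.card ↥(L ⊓ A) := by
    have h1 := Coprime.card_sup_mul_card_inf_of_le_normalizer hn
    have e1 : (L ⊓ A) ⊔ T = L := le_antisymm (sup_le inf_le_left hTL) fun x hx => by
      obtain ⟨t, ht, e, he, rfl⟩ := hLTA x hx
      exact mul_mem (mem_sup_right ht) (mem_sup_left he)
    have e2 : (L ⊓ A) ⊓ T = T ⊓ A :=
      le_antisymm (le_inf inf_le_right (inf_le_left.trans inf_le_right))
        (le_inf (le_inf (inf_le_left.trans hTL) inf_le_right) inf_le_left)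
    rw [e1, e2] at h1
    rw [h1, mul_comm]
  set U := Y ⊔ (L ⊓ A) with hU
  have hUL : U ≤ L := sup_le (hYT.trans hTL) inf_le_left
  have hYn : H ≤ normalizer (Y : Set S) := fun x hx => hΓY (hΓ ▸ mem_sup_right (hHΔ hx))
  have cU : Nat.card U * Nat.card ↥(Y ⊓ A) = Nat.card Y * Nat.card ↥(L ⊓ A) := by
    have h1 := Coprime.card_sup_mul_card_inf_of_le_normalizer ((inf_le_left.trans hLH).trans hYn : L ⊓ A ≤ normalizer (Y : Set S))
    have e2 : (L ⊓ A) ⊓ Y = Y ⊓ A :=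
      le_antisymm (le_inf inf_le_right (inf_le_left.trans inf_le_right))
        (le_inf (le_inf (inf_le_left.trans (hYT.trans hTL)) inf_le_right) inf_le_left)
    rw [sup_comm (L ⊓ A) Y, e2] at h1
    rw [hU, h1, mul_comm]
  have hTU : Nat.card T ≤ Nat.card U := by
    refine Nat.le_of_mul_le_mul_right ?_ (Nat.card_pos (α := ↥(Y ⊓ A)))
    refine Nat.le_of_mul_le_mul_left ?_ (Nat.card_pos (α := T))
    have hle : Nat.card ↥(Y ⊓ A) ≤ Nat.card ↥(T ⊓ A) := card_le_of_le (inf_le_inf_right _ hYT)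
    calc Nat.card T * (Nat.card T * Nat.card ↥(Y ⊓ A)) ≤ Nat.card T * (Nat.card T * Nat.card ↥(T ⊓ A)) := by gcongr
      _ = Nat.card L * Nat.card ↥(T ⊓ A) * Nat.card Y := by rw [← mul_assoc, ← cLY]; ring
      _ = Nat.card T * (Nat.card U * Nat.card ↥(Y ⊓ A)) := by rw [cL, cU]; ring
  -- `U` is an abelian member
  have hUa : U ≤ centralizer (U : Set S) := by
    rw [hU, centralizer_sup]
    have hYL : Y ≤ centralizer (L : Set S) := hLC.ge.trans inf_le_right
    have hLY : L ≤ centralizer (Y : Set S) := hH ▸ hLH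
    refine sup_le (le_inf ?_ (hYL.trans (centralizer_le inf_le_left)))
      (le_inf (inf_le_left.trans hLY) (inf_le_right.trans (hAa.trans (centralizer_le inf_le_right))))
    exact (hYT.trans hTa).trans (centralizer_le hYT)
  have hR₀U : R₀ ⊓ U = Y :=
    le_antisymm (((inf_le_inf_left _ hUL)).trans (inf_comm R₀ L ▸ hLC.le)) (le_inf hYR₀ le_sup_left)
  have hle : R₀ ⊔ U ≤ centralizer (U : Set S) := sup_le (centralizer_le hUL) hUa
  have c1 : Nat.card ↥(U ⊔ R₀) * Nat.card Y = Nat.card U * Nat.card R₀ := by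
    rw [← hR₀U, inf_comm]
    exact Coprime.card_sup_mul_card_inf_of_le_normalizer ((hUL.trans hLH).trans hR₀n)
  have hkey : Cfsg.maxCentralizerProduct S ≤ Nat.card U * Nat.card ↥(U ⊔ R₀) := by
    refine Nat.le_of_mul_le_mul_right ?_ (Nat.card_pos (α := Y))
    calc Cfsg.maxCentralizerProduct S * Nat.card Y = Nat.card T * Nat.card T * Nat.card R₀ := by
          rw [← hf1, mul_assoc, cR]; ring
      _ ≤ Nat.card U * Nat.card U * Nat.card R₀ := by gcongr
      _ = Nat.card U * Nat.card ↥(U ⊔ R₀) * Nat.card Y := by rw [mul_assoc, ← c1]; ring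
  have hUm : Cfsg.IsCentralizerLarge U :=
    centralizerLarge_of_le (hkey.trans (Nat.mul_le_mul_left _ (card_le_of_le (sup_comm R₀ U ▸ hle))))
  have hCU : centralizer (U : Set S) = U ⊔ R₀ := (eq_of_card (sup_comm R₀ U ▸ hle) (by
    refine Nat.le_of_mul_le_mul_left ?_ (Nat.card_pos (α := U))
    exact (le_of_eq (show Nat.card U * Nat.card ↥(centralizer (U : Set S)) = _ from hUm)).trans hkey)).symm
  have hAY : A ≤ normalizer (Y : Set S) := hAΓ.trans hΓY
  have hAU : A ≤ normalizer (U : Set S) := fun a ha => mem_normalizer_sup (hAY ha)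
    (mem_normalizer_inf (hLΓ (hAΓ ha)) (A.le_normalizer ha))
  refine ⟨centralizer (U : Set S), le_sup_left.trans hUa, ?_, ?_, fun a ha => mem_normalizer_centralizer (hAU ha),
    ?_, fun l hl => mem_normalizer_centralizer (mem_normalizer_of_comm fun r hr => ?_), ?_⟩
  · rw [hCU]; exact sup_le (hUL.trans hLH) (hsup ▸ le_sup_right)
  · exact fun a ha => mem_normalizer_centralizer (hAU ha.2)
  · rw [sup_comm]
    exact (centrallyLarge_iff.1 (centrallyLarge_sup_maxAbelian (cl_centralizer hUm hUa) hA)).1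
  · exact mem_sup_left (hLH2 l hl r (hLH (hUL hr)))
  · have hAR₀ : A ≤ normalizer (R₀ : Set S) := fun a ha => mem_normalizer_centralizer (hLΓ (hAΓ ha))
    have hsup' : centralizer (U : Set S) ≤ modCent R₀ H (A : Set S) hR₀n := by
      rw [hCU]
      refine sup_le (sup_le (fun y hy => ?_) fun e he => ?_) fun r hr => ?_
      · refine mem_modCent.2 ⟨hLH (hTL (hYT hy)), fun a ha => ?_⟩
        refine hYR₀ ?_
        rw [show ⁅y, a⁆ = y * (a * y⁻¹ * a⁻¹) by simp only [commutatorElement_def]; group]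
        exact mul_mem hy ((mem_normalizer_iff.1 (hAY ha) _).1 (inv_mem hy))
      · refine mem_modCent.2 ⟨hLH he.1, fun a ha => ?_⟩
        rw [commutatorElement_eq_one_iff_mul_comm.2 (comm_of_abelian hAa he.2 ha)]
        exact one_mem _
      · refine mem_modCent.2 ⟨hsup ▸ mem_sup_right hr, fun a ha => ?_⟩
        rw [show ⁅r, a⁆ = r * (a * r⁻¹ * a⁻¹) by simp only [commutatorElement_def]; group]
        exact mul_mem hr ((mem_normalizer_iff.1 (hAR₀ ha) _).1 (inv_mem hr))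
    exact fun x hx a ha => (mem_modCent.1 (hsup' hx)).2 a ha

/-- Every abelian member of the lattice above `Y` has one above `Y` normalised by `H`. -/
theorem exists_normal (hS : IsPGroup p S) {Y H T : Subgroup S} (hY : Cfsg.IsCentralizerLarge Y)
    (hYa : Y ≤ centralizer (Y : Set S)) (hH : H = centralizer (Y : Set S)) (hT : Cfsg.IsCentralizerLarge T)
    (hTa : T ≤ centralizer (T : Set S)) (hYT : Y < T) :
    ∃ Z, Cfsg.IsCentralizerLarge Z ∧ Z ≤ centralizer (Z : Set S) ∧ Y < Z ∧ H ≤ normalizer (Z : Set S) := by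
  classical
  have hHY : H ≤ normalizer (Y : Set S) := by rw [hH]; exact centralizer_le_normalizer _
  set 𝒵 := {Z : Subgroup S | Cfsg.IsCentralizerLarge Z ∧ Z ≤ centralizer (Z : Set S) ∧ Y < Z} with h𝒵
  obtain ⟨Z₁, hZ₁, hmax⟩ := (Set.toFinite 𝒵).exists_maximalFor
    (fun Z : Subgroup S => Nat.card ↥(H ⊓ normalizer (Z : Set S))) _ ⟨T, hT, hTa, hYT⟩
  set m := Nat.card ↥(H ⊓ normalizer (Z₁ : Set S)) with hm
  obtain ⟨Z, ⟨⟨hZ, hZa, hYZ⟩, hZm⟩, hmin⟩ :=
    (Set.toFinite {Z ∈ 𝒵 | Nat.card ↥(H ⊓ normalizer (Z : Set S)) = m}).exists_minimalFor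
      (fun Z : Subgroup S => Nat.card Z) _ ⟨Z₁, hZ₁, rfl⟩
  by_cases hall : H ≤ normalizer (Z : Set S)
  · exact ⟨Z, hZ, hZa, hYZ, hall⟩
  exfalso
  set N := H ⊓ normalizer (Z : Set S) with hN
  have hlt : N < H := lt_of_le_of_ne inf_le_left fun e => hall (inf_eq_left.1 e)
  obtain ⟨h, hhH, hhN, hhn⟩ := exists_mem_normalizer hS hlt
  set Γ := H ⊓ normalizer (N : Set S) with hΓ
  have hle : ∀ Z' ∈ 𝒵, Nat.card ↥(H ⊓ normalizer (Z' : Set S)) ≤ m := fun Z' hZ' => by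
    by_contra hc
    exact hc (hmax hZ' (not_le.1 hc).le)
  have hNΓ : N < Γ := lt_of_le_of_ne (le_inf inf_le_left N.le_normalizer) fun e => hhN (e ▸ ⟨hhH, hhn⟩)
  obtain ⟨L, -, -, hZL, -, -, -, hsup, -, hLH⟩ := orbit (H := H) (N := N) (Γ := Γ) hY hYa hH hZ hYZ hZa
    (le_inf (hH ▸ hZa.trans (centralizer_le hYZ.le)) Z.le_normalizer) inf_le_right inf_le_right
    (inf_le_left.trans hHY)
    (fun Z' h1 h2 h3 h4 => by
      refine le_of_not_gt fun hlt' => ?_
      have hge : m ≤ Nat.card ↥(H ⊓ normalizer (Z' : Set S)) := hZm ▸ card_le_of_le (le_inf inf_le_left h4)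
      exact hlt'.not_ge (hmin ⟨⟨h1, h2, h3⟩, le_antisymm (hle _ ⟨h1, h2, h3⟩) hge⟩ hlt'.le))
    (fun Z' h1 h2 h3 h4 => by
      have : Nat.card N < Nat.card ↥(H ⊓ normalizer (Z' : Set S)) :=
        lt_of_lt_of_le (lt_of_le_of_ne (card_le_of_le hNΓ.le) fun e => hNΓ.ne (eq_of_card hNΓ.le e.ge))
          (card_le_of_le (le_inf inf_le_left h4))
      have := hle _ ⟨h1, h2, h3⟩
      omega)
  refine hall fun x hx => mem_normalizer_of_comm fun r hr => ?_
  rw [← commutatorElement_inv]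
  exact hYZ.le (inv_mem (hLH r (hZL hr) x hx))

/-- An abelian member normalised by the Thompson subgroup, above `Y`. -/
theorem exists_invariant (hS : IsPGroup p S) {Y H T : Subgroup S} (hY : Cfsg.IsCentralizerLarge Y)
    (hYa : Y ≤ centralizer (Y : Set S)) (hH : H = centralizer (Y : Set S))
    (hJY : Cfsg.thompsonSubgroupA S ≤ normalizer (Y : Set S)) (hT : Cfsg.IsCentralizerLarge T)
    (hTa : T ≤ centralizer (T : Set S)) (hYT : Y < T) :
    ∃ Z, Cfsg.IsCentralizerLarge Z ∧ Z ≤ centralizer (Z : Set S) ∧ Y < Z ∧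
      Cfsg.thompsonSubgroupA S ≤ normalizer (Z : Set S) := by
  classical
  have hHY : H ≤ normalizer (Y : Set S) := by rw [hH]; exact centralizer_le_normalizer _
  have hHn : ∀ g, g ∈ normalizer (Y : Set S) → g ∈ normalizer (H : Set S) := fun g hg => by
    rw [hH]; exact mem_normalizer_centralizer hg
  by_contra hno
  push Not at hno
  let Del : Subgroup S → Subgroup S := fun Z =>
    H ⊔ sSup {A | A ∈ Cfsg.maxAbelianSubgroups S ∧ A ≤ normalizer (Z : Set S)}
  set 𝒵 := {Z : Subgroup S | Cfsg.IsCentralizerLarge Z ∧ Z ≤ centralizer (Z : Set S) ∧ Y < Z ∧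
    H ≤ normalizer (Z : Set S)} with h𝒵
  obtain ⟨Z₁, hZ₁, hmax⟩ := (Set.toFinite 𝒵).exists_maximalFor
    (fun Z : Subgroup S => Nat.card ↥(Del Z)) _ (exists_normal hS hY hYa hH hT hTa hYT)
  set m := Nat.card ↥(Del Z₁) with hm
  have hle : ∀ Z' ∈ 𝒵, Nat.card ↥(Del Z') ≤ m := fun Z' hZ' => by
    by_contra hc
    exact hc (hmax hZ' (not_le.1 hc).le)
  obtain ⟨Z, ⟨⟨hZ, hZa, hYZ, hHZ⟩, hZm⟩, hmin⟩ :=
    (Set.toFinite {Z ∈ 𝒵 | Nat.card ↥(Del Z) = m}).exists_minimalFor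
      (fun Z : Subgroup S => Nat.card Z) _ ⟨Z₁, hZ₁, rfl⟩
  set Δ := Del Z with hΔ
  have hHΔ : H ≤ Δ := le_sup_left
  have hΔZ : Δ ≤ normalizer (Z : Set S) := sup_le hHZ (sSup_le fun A hA => hA.2)
  have memDel : ∀ {B Z' : Subgroup S}, B ∈ Cfsg.maxAbelianSubgroups S → B ≤ normalizer (Z' : Set S) → B ≤ Del Z' :=
    fun {B Z'} h1 h2 => le_trans (le_sSup (show B ∈ {A | A ∈ Cfsg.maxAbelianSubgroups S ∧ A ≤ normalizer (Z' : Set S)}
      from ⟨h1, h2⟩)) le_sup_right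
  have hJA : ∀ {A}, A ∈ Cfsg.maxAbelianSubgroups S → A ≤ Cfsg.thompsonSubgroupA S := fun hA => le_sSup hA
  have hΔY : Δ ≤ normalizer (Y : Set S) := sup_le hHY (sSup_le fun A hA => (hJA hA.1).trans hJY)
  -- a generator outside `Δ` normalising it
  obtain ⟨A, hA, hAΔ, hAn⟩ : ∃ A ∈ Cfsg.maxAbelianSubgroups S, ¬ A ≤ Δ ∧ A ≤ normalizer (Δ : Set S) := by
    by_contra! hcon
    have hnJ : ¬ Cfsg.thompsonSubgroupA S ≤ Δ := fun h => hno Z hZ hZa hYZ (h.trans hΔZ)
    set G := H ⊔ Cfsg.thompsonSubgroupA S with hG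
    have hGY : G ≤ normalizer (Y : Set S) := sup_le hHY hJY
    have hΔG : Δ ≤ G := sup_le le_sup_left (sSup_le fun A hA => (hJA hA.1).trans le_sup_right)
    have hN1 : G ⊓ normalizer (Δ : Set S) < G := lt_of_le_of_ne inf_le_left fun e => by
      refine hnJ (sSup_le fun A hA => ?_)
      by_contra hAn
      exact hcon A hA hAn (((hJA hA).trans le_sup_right).trans (inf_eq_left.1 e))
    obtain ⟨g, hgG, hgN, hgn⟩ := exists_mem_normalizer hS hN1
    refine hgN ⟨hgG, mem_normalizer_of_cj_le ?_⟩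
    rw [hΔ]
    simp only [Del, cj, Subgroup.map_sup]
    refine sup_le ((cj_eq_of_mem_normalizer (hHn g (hGY hgG))).le.trans le_sup_left) ?_
    refine map_le_iff_le_comap.2 (sSup_le fun A hA => map_le_iff_le_comap.1 ?_)
    have hgA : cj g A ∈ Cfsg.maxAbelianSubgroups S := maxAbelian_cj hA.1
    have hAN : A ≤ G ⊓ normalizer (Δ : Set S) :=
      ((le_sSup (show A ∈ {A | A ∈ Cfsg.maxAbelianSubgroups S ∧ A ≤ normalizer (Z : Set S)} from hA)).trans
        le_sup_right).trans (le_inf hΔG Δ.le_normalizer)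
    by_contra hc
    exact hcon _ hgA hc (((map_mono hAN).trans (cj_eq_of_mem_normalizer hgn).le).trans inf_le_right)
  set Γ := A ⊔ Δ with hΓ
  have hΓΔ : Γ ≤ normalizer (Δ : Set S) := sup_le hAn Δ.le_normalizer
  have hΓY : Γ ≤ normalizer (Y : Set S) := sup_le ((hJA hA).trans hJY) hΔY
  have hnone : ∀ Z' : Subgroup S, Cfsg.IsCentralizerLarge Z' → Z' ≤ centralizer (Z' : Set S) → Y < Z' →
      ¬ Γ ≤ normalizer (Z' : Set S) := by
    intro Z' h1 h2 h3 h4
    have hΔ' : Δ ≤ Del Z' := sup_le le_sup_left (sSup_le fun B hB =>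
      memDel hB.1 ((memDel hB.1 hB.2).trans (le_sup_right.trans h4)))
    have hA' : A ≤ Del Z' := memDel hA (le_sup_left.trans h4)
    have hlt : Nat.card Δ < Nat.card ↥(Del Z') := by
      refine lt_of_le_of_ne (card_le_of_le hΔ') fun e => hAΔ ?_
      rw [eq_of_card hΔ' e.ge]
      exact hA'
    have := hle Z' ⟨h1, h2, h3, hHΔ.trans (le_sup_right.trans h4)⟩
    omega
  have hsmall : ∀ Z' : Subgroup S, Cfsg.IsCentralizerLarge Z' → Z' ≤ centralizer (Z' : Set S) → Y < Z' →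
      Δ ≤ normalizer (Z' : Set S) → Nat.card Z ≤ Nat.card Z' := by
    intro Z' h1 h2 h3 h4
    refine le_of_not_gt fun hlt' => ?_
    have hΔ' : Δ ≤ Del Z' := sup_le le_sup_left (sSup_le fun B hB =>
      memDel hB.1 ((memDel hB.1 hB.2).trans h4))
    have hmem : Z' ∈ 𝒵 := ⟨h1, h2, h3, hHΔ.trans h4⟩
    exact hlt'.not_ge (hmin ⟨hmem, le_antisymm (hle _ hmem) (hZm ▸ card_le_of_le hΔ')⟩ hlt'.le)
  obtain ⟨L, hLdef, hL, hZL, hLH, hLΓ, hLC, hsup, -, hLH2⟩ := orbit (H := H) (N := Δ) (Γ := Γ) hY hYa hH hZ hYZ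
    hZa ((hH ▸ hZa.trans (centralizer_le hYZ.le) : Z ≤ H).trans hHΔ) hΔZ hΓΔ hΓY hsmall hnone
  -- the generators
  set 𝔄 := {B : Subgroup S | ∃ g ∈ Γ, B = cj g A} with h𝔄
  set Γ₀ := sSup 𝔄 with hΓ₀
  have hAΓ₀ : A ≤ Γ₀ := le_sSup ⟨1, one_mem _, (LocalFusion.map_conj_one A).symm⟩
  have hΓ₀Γ : Γ₀ ≤ Γ := sSup_le (by
    rintro _ ⟨g, hg, rfl⟩
    exact (map_mono le_sup_left).trans (cj_eq_of_mem_normalizer (Γ.le_normalizer hg)).le)
  have hΓΓ₀ : Γ ≤ normalizer (Γ₀ : Set S) := fun x hx => mem_normalizer_sSup (by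
    rintro _ ⟨g, hg, rfl⟩
    rw [cj_cj]
    exact le_sSup ⟨x * g, mul_mem hx hg, rfl⟩)
  have hΓH : Γ ≤ normalizer (H : Set S) := fun x hx => hHn x (hΓY hx)
  set Cent := modCent Y H (Γ₀ : Set S) hHY with hCent
  have hYH : Y ≤ H := hH ▸ hYa
  have hcn : ∀ {g y : S}, g ∈ Γ → y ∈ Y → ⁅y, g⁆ ∈ Y := fun {g y} hg hy => by
    rw [show ⁅y, g⁆ = y * (g * y⁻¹ * g⁻¹) by simp only [commutatorElement_def]; group]
    exact mul_mem hy ((mem_normalizer_iff.1 (hΓY hg) _).1 (inv_mem hy))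
  have hYCent : Y ≤ Cent := fun y hy => mem_modCent.2 ⟨hYH hy, fun g hg => hcn (hΓ₀Γ hg) hy⟩
  have hCentΓ : Γ ≤ normalizer (Cent : Set S) := fun g hg => by
    refine mem_normalizer_of_cj_le ?_
    rintro _ ⟨x, hx, rfl⟩
    obtain ⟨hxH, hxc⟩ := mem_modCent.1 hx
    refine mem_modCent.2 ⟨(mem_normalizer_iff.1 (hΓH hg) x).1 hxH, fun k hk => ?_⟩
    show ⁅g * x * g⁻¹, k⁆ ∈ Y
    have hk' : g⁻¹ * k * g ∈ Γ₀ := by
      have := (mem_normalizer_iff.1 (hΓΓ₀ (inv_mem hg)) k).1 hk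
      rwa [inv_inv] at this
    rw [show ⁅g * x * g⁻¹, k⁆ = g * ⁅x, g⁻¹ * k * g⁆ * g⁻¹ by simp only [commutatorElement_def]; group]
    exact (mem_normalizer_iff.1 (hΓY hg) _).1 (hxc _ hk')
  -- the largest centralised member
  set 𝒲 := {X : Subgroup S | Cfsg.IsCentralizerLarge X ∧ Y ≤ X ∧ X ≤ L ∧ X ≤ Cent} with h𝒲
  have h𝒲Y : Y ∈ 𝒲 := ⟨hY, le_rfl, hYZ.le.trans hZL, hYCent⟩
  set W := sSup 𝒲 with hW
  have hWm : Cfsg.IsCentralizerLarge W := large_sSup ⟨Y, h𝒲Y⟩ fun X hX => hX.1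
  have hWL : W ≤ L := sSup_le fun X hX => hX.2.2.1
  have hWC : W ≤ Cent := sSup_le fun X hX => hX.2.2.2
  have hYW : Y ≤ W := le_sSup h𝒲Y
  have hWΓ : Γ ≤ normalizer (W : Set S) := fun g hg => mem_normalizer_sSup (fun X hX =>
    le_sSup ⟨large_cj hX.1, (cj_eq_of_mem_normalizer (hΓY hg)).ge.trans (map_mono hX.2.1),
      (map_mono hX.2.2.1).trans (cj_eq_of_mem_normalizer (hLΓ hg)).le,
      (map_mono hX.2.2.2).trans (cj_eq_of_mem_normalizer (hCentΓ hg)).le⟩)
  obtain ⟨hCW, hCCW⟩ := large_centralizer hWm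
  have hYCW : Y ≤ centralizer (W : Set S) := le_centralizer_iff.1 (hH ▸ hWL.trans hLH)
  have hWW : W ⊓ centralizer (W : Set S) = Y := by
    rcases (le_inf hYW hYCW).lt_or_eq with hlt | heq
    · exfalso
      exact hnone _ (large_pair hWm hCW).2.2.1 (inf_le_right.trans (centralizer_le inf_le_left)) hlt
        fun x hx => mem_normalizer_inf (hWΓ hx) (mem_normalizer_centralizer (hWΓ hx))
    · exact heq.symm
  set W' := centralizer (W : Set S) ⊓ L with hW'
  have hW'm : Cfsg.IsCentralizerLarge W' := (large_pair hCW hL).2.2.1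
  have hYW' : Y ≤ W' := le_inf hYCW (hYZ.le.trans hZL)
  have hW'Γ : Γ ≤ normalizer (W' : Set S) := fun x hx =>
    mem_normalizer_inf (mem_normalizer_centralizer (hWΓ hx)) (hLΓ hx)
  rcases hYW'.lt_or_eq with hlt | heq
  · -- a minimal invariant member in the complement
    set 𝒳 := {X : Subgroup S | Cfsg.IsCentralizerLarge X ∧ Y < X ∧ X ≤ W' ∧ Γ₀ ≤ normalizer (X : Set S)} with h𝒳
    obtain ⟨X, ⟨hX, hYX, hXW, hXΓ⟩, hXmin⟩ := (Set.toFinite 𝒳).exists_minimal
      ⟨W', hW'm, hlt, le_rfl, hΓ₀Γ.trans hW'Γ⟩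
    have hXL : X ≤ L := hXW.trans inf_le_right
    have hXH : X ≤ H := hXL.trans hLH
    have hXC : ¬ X ≤ Cent := fun h => hYX.not_ge ((le_inf (le_sSup (show X ∈ 𝒲 from ⟨hX, hYX.le, hXL, h⟩))
      (hXW.trans inf_le_left)).trans hWW.le)
    have hnX : ∀ x ∈ X, ∀ c, c ∈ H → ⁅c, x⁆ ∈ Y := fun x hx c hc => by
      rw [← commutatorElement_inv]; exact inv_mem (hLH2 x (hXL hx) c hc)
    set C₁ := Cent ⊓ X with hC₁
    have hC₁X : C₁ < X := lt_of_le_of_ne inf_le_right fun e => hXC (inf_eq_right.1 e)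
    have hXC₁ : X ≤ normalizer (C₁ : Set S) := fun x hx => mem_normalizer_of_comm fun r hr =>
      le_inf hYCent hYX.le (hLH2 x (hXL hx) r (hXH hr.2))
    obtain ⟨u, huX, huC, huc⟩ := exists_central_mod hS hC₁X hXΓ
      (fun g hg => mem_normalizer_inf (hCentΓ (hΓ₀Γ hg)) (hXΓ hg)) hXC₁
    have huC' : u ∉ Cent := fun h => huC ⟨h, huX⟩
    obtain ⟨B, hB, a, ha, hua⟩ : ∃ B ∈ 𝔄, ∃ a ∈ B, ⁅u, a⁆ ∉ Y := by
      by_contra! hall
      refine huC' (mem_modCent.2 ⟨hXH huX, fun g hg => ?_⟩)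
      have hle' : Γ₀ ≤ modCent Y Γ {u} hΓY := sSup_le fun B hB b hb => mem_modCent.2
        ⟨hΓ₀Γ (le_sSup hB hb), by
          rintro _ rfl
          rw [← commutatorElement_inv]
          exact inv_mem (hall B hB b hb)⟩
      rw [← commutatorElement_inv]
      exact inv_mem ((mem_modCent.1 (hle' hg)).2 u rfl)
    obtain ⟨g₀, hg₀, rfl⟩ := hB
    have hBΓ₀ : cj g₀ A ≤ Γ₀ := le_sSup ⟨g₀, hg₀, rfl⟩
    have hBΓ : cj g₀ A ≤ Γ := hBΓ₀.trans hΓ₀Γ
    have hBsup : Γ = cj g₀ A ⊔ Δ := by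
      have := cj_eq_of_mem_normalizer (Γ.le_normalizer hg₀)
      conv_lhs => rw [← this]
      rw [hΓ, cj, Subgroup.map_sup, ← cj, ← cj, cj_eq_of_mem_normalizer (hΓΔ hg₀)]
    obtain ⟨G, hYG, hGH, -, hBG, hBGm, hLG, hGc⟩ := half hS hY hH hZ hYZ.le hZa (maxAbelian_cj hA)
      (hBΓ.trans hΓΔ) hΔZ hBsup hHΔ hΓY hLdef hL hLH hZL hLΓ hLC hsup hLH2
    set M₁ := cj g₀ A ⊔ G with hM₁
    have hBC₁ : cj g₀ A ≤ normalizer (C₁ : Set S) := fun b hb =>
      mem_normalizer_inf (hCentΓ (hBΓ hb)) (hXΓ (hBΓ₀ hb))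
    set G' := G ⊔ C₁ with hG'
    have hfC₁ : ∀ b ∈ cj g₀ A, ⁅u, b⁆ ∈ C₁ := fun b hb => huc b (hBΓ₀ hb)
    have hM₂ : M₁ ⊔ cj u M₁ ≤ cj g₀ A ⊔ G' := by
      refine sup_le (sup_le le_sup_left (le_sup_left.trans le_sup_right)) ?_
      rw [hM₁, cj, Subgroup.map_sup]
      refine sup_le ?_ ?_
      · rintro _ ⟨b, hb, rfl⟩
        show u * b * u⁻¹ ∈ _
        rw [conj_comm]
        exact mul_mem (mem_sup_right (mem_sup_right (hfC₁ b hb))) (mem_sup_left hb)
      · exact (cj_eq_of_mem_normalizer (hLG u (hXL huX))).le.trans (le_sup_left.trans le_sup_right)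
    set f := ⁅u, a⁆ with hf
    have hfM : f ∈ M₁ ⊔ cj u M₁ := by
      rw [hf, show ⁅u, a⁆ = (u * a * u⁻¹) * a⁻¹ by simp only [commutatorElement_def]]
      exact mul_mem (mem_sup_right (mem_map_of_mem _ (mem_sup_left ha))) (inv_mem (mem_sup_left (mem_sup_left ha)))
    have hM : Cfsg.IsCentralizerLarge (M₁ ⊔ cj u M₁) := (large_pair hBGm (large_cj hBGm)).2.1
    set Xf := sInf {M : Subgroup S | Cfsg.IsCentralizerLarge M ∧ Y ≤ M ∧ f ∈ M} with hXf
    have hfX : f ∈ X := (hfC₁ a ha).2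
    have hXfm : Cfsg.IsCentralizerLarge Xf := large_sInf ⟨X, hX, hYX.le, hfX⟩ fun M hM => hM.1
    have hfXf : f ∈ Xf := mem_sInf.2 fun M hM => hM.2.2
    have hYXf : Y ≤ Xf := le_sInf fun M hM => hM.2.1
    have hXfX : Xf ≤ X := sInf_le ⟨hX, hYX.le, hfX⟩
    have hXfΓ : Γ₀ ≤ normalizer (Xf : Set S) := fun k hk => by
      have hge : Xf ≤ cj k Xf := by
        refine sInf_le ⟨large_cj hXfm, (cj_eq_of_mem_normalizer (hΓY (hΓ₀Γ hk))).ge.trans (map_mono hYXf), ?_⟩
        rw [mem_cj]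
        have hk' : ⁅f, k⁻¹⁆ ∈ Xf := hYXf ((mem_modCent.1 ((hfC₁ a ha).1)).2 _ (inv_mem hk))
        rw [show k⁻¹ * f * k = (⁅f, k⁻¹⁆)⁻¹ * f by simp only [commutatorElement_def]; group]
        exact mul_mem (inv_mem hk') hfXf
      have he := eq_of_card hge (card_cj k Xf).le
      exact mem_normalizer_of_cj_le he.ge
    have hXeq : X ≤ Xf := hXmin ⟨hXfm, lt_of_le_of_ne hYXf fun e => hua (e ▸ hfXf), hXfX.trans hXW, hXfΓ⟩ hXfX
    have hXM : X ≤ cj g₀ A ⊔ G' := hXeq.trans ((sInf_le (show M₁ ⊔ cj u M₁ ∈ {M : Subgroup S | Cfsg.IsCentralizerLarge M ∧ Y ≤ M ∧ f ∈ M} from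
      ⟨hM, hYG.trans (le_sup_right.trans le_sup_left), hfM⟩)).trans hM₂)
    -- everything there is centralised modulo the centraliser of `L`
    have hR₀n : H ≤ normalizer (centralizer (L : Set S) : Set S) := fun x hx =>
      mem_normalizer_centralizer (hLΓ (le_sup_right (a := A) (hHΔ hx)))
    have hYR₀ : Y ≤ centralizer (L : Set S) := hLC.ge.trans inf_le_right
    have hBG' : cj g₀ A ≤ normalizer (G' : Set S) := fun b hb => mem_normalizer_sup (hBG hb) (hBC₁ hb)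
    obtain ⟨b, hb, y, hy, hby⟩ := (Coprime.mem_sup_of_le_normalizer hBG').1 (hXM huX)
    have hG'H : G' ≤ H := sup_le hGH (inf_le_right.trans hXH)
    have hbH : b ∈ H := by
      have := mul_mem (hXH huX) (inv_mem (hG'H hy))
      rwa [← hby, mul_inv_cancel_right] at this
    have hΦ : G' ≤ modCent (centralizer (L : Set S)) H (cj g₀ A : Set S) hR₀n :=
      sup_le (fun x hx => mem_modCent.2 ⟨hGH hx, fun c hc => hGc x hx c hc⟩)
        (fun x hx => mem_modCent.2 ⟨hXH hx.2, fun c hc => hYR₀ ((mem_modCent.1 hx.1).2 c (hBΓ₀ hc))⟩)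
    have hbΦ : b ∈ modCent (centralizer (L : Set S)) H (cj g₀ A : Set S) hR₀n :=
      mem_modCent.2 ⟨hbH, fun c hc => by
        rw [commutatorElement_eq_one_iff_mul_comm.2 (comm_of_abelian
          (le_centralizer_iff_isMulCommutative.2 (maxAbelian_cj (g := g₀) hA).1) hb hc)]
        exact one_mem _⟩
    have huR : ⁅u, a⁆ ∈ centralizer (L : Set S) := by
      have := (mem_modCent.1 (mul_mem hbΦ (hΦ hy))).2 a ha
      rwa [hby] at this
    exact hua (hLC.le ⟨hXL hfX, huR⟩)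
  · -- `A` centralises the orbit
    have hH' : W ⊔ centralizer (W : Set S) = H := by
      have := (large_pair hWm hCW).2.2.2.2
      rw [hWW, ← hCCW, sup_comm] at this
      rw [hH, this]
    have hLW : L ≤ W := by
      intro l hl
      have hl' : l ∈ ((W ⊔ centralizer (W : Set S) : Subgroup S) : Set S) := hH'.symm ▸ hLH hl
      rw [(large_pair hWm hCW).1] at hl'
      obtain ⟨w, hw, c, hc, rfl⟩ := hl'
      have hcL : c ∈ L := by
        have := mul_mem (inv_mem (hWL hw)) hl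
        rwa [inv_mul_cancel_left] at this
      exact mul_mem hw (hYW (heq.ge ⟨hc, hcL⟩))
    refine hnone Z hZ hZa hYZ (sup_le (fun a ha => mem_normalizer_of_comm fun r hr => ?_) hΔZ)
    rw [← commutatorElement_inv]
    exact hYZ.le (inv_mem ((mem_modCent.1 (hWC (hLW (hZL hr)))).2 a (hAΓ₀ ha)))

/-- A minimal centrally large subgroup is normalised by the Thompson subgroup. -/
theorem exists_minimal_normalized (hS : IsPGroup p S) :
    ∃ Q : Subgroup S, Cfsg.IsMinimalCentrallyLarge Q ∧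
      Cfsg.thompsonSubgroupA S ≤ normalizer (Q : Set S) := by
  classical
  set J := Cfsg.thompsonSubgroupA S with hJ
  have hX0 : Cfsg.IsCentrallyLarge (Cfsg.centrallyLargeJoin S) :=
    centrallyLarge_sSup exists_centrallyLarge fun R hR => hR
  obtain ⟨hX1, hX2⟩ := centrallyLarge_iff.1 hX0
  set 𝒴 := {Y : Subgroup S | Cfsg.IsCentralizerLarge Y ∧ Y ≤ centralizer (Y : Set S) ∧ J ≤ normalizer (Y : Set S)}
  have hY0 : centralizer (Cfsg.centrallyLargeJoin S : Set S) ∈ 𝒴 := by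
    refine ⟨(large_centralizer hX1).1, ?_, fun g _ => mem_normalizer_centralizer (mem_normalizer_sSup fun R hR => le_sSup ?_)⟩
    · rw [← (large_centralizer hX1).2]; exact hX2
    · show Cfsg.IsCentrallyLarge (cj g R)
      obtain ⟨h1, h2⟩ := centrallyLarge_iff.1 hR
      exact centrallyLarge_iff.2 ⟨large_cj h1, by rw [cj_centralizer]; exact map_mono h2⟩
  obtain ⟨Y, ⟨hY, hYa, hJY⟩, hmax⟩ := (Set.toFinite 𝒴).exists_maximal ⟨_, hY0⟩
  refine ⟨centralizer (Y : Set S), ⟨cl_centralizer hY hYa, fun R hle hR => ?_⟩,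
    fun g hg => mem_normalizer_centralizer (hJY hg)⟩
  by_contra hne
  obtain ⟨hR1, hR2⟩ := centrallyLarge_iff.1 hR
  have hYT : Y < centralizer (R : Set S) := lt_of_le_of_ne (le_centralizer_iff.1 hle) fun e => hne (by
    rw [e, ← (large_centralizer hR1).2])
  obtain ⟨Z, h1, h2, h3, h4⟩ := exists_invariant hS hY hYa rfl hJY (large_centralizer hR1).1
    (by rw [← (large_centralizer hR1).2]; exact hR2) hYT
  exact h3.not_ge (hmax ⟨h1, h2, h4⟩ h3.le)

end Cfsg.Agent.Lib.CLNormal
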